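import Mathlib

set_option autoImplicit false

namespace Cfsg.Agent.Lib.Helper70.AB

universe u v

/-- the complement of an orbit, as a sub-action -/
def compl (A : Type u) [Group A] {Ω : Type v} [MulAction A Ω] (ω : Ω) : SubMulAction A Ω where
  carrier := (MulAction.orbit A ω)ᶜ
  smul_mem' := by
    intro a x hx hax
    apply hx
    have := (MulAction.orbit A ω).smul_mem_smul_set (a := a⁻¹) hax
    simpa using this

end Cfsg.Agent.Lib.Helper70.AB
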