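import Cfsg.Agent.Lib.Helper70.AB.Defs
import Cfsg.Agent.Lib.Helper35.ABNUM1
import Cfsg.Agent.Lib.Helper35.ABNUM2

set_option autoImplicit false
set_option linter.style.haveILetI false

namespace Cfsg.Agent.Lib.Helper70.AB

universe u v


theorem faith (A : Type u) [CommGroup A] {Ω : Type v} [MulAction A Ω] [FaithfulSMul A Ω] (ω : Ω) :
    FaithfulSMul (MulAction.stabilizer A ω) (compl A ω) := by
  constructor
  intro a b h
  apply Subtype.ext
  apply FaithfulSMul.eq_of_smul_eq_smul (α := Ω)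
  intro x
  by_cases hx : x ∈ MulAction.orbit A ω
  · obtain ⟨c, rfl⟩ := hx
    have ha : (a : A) • ω = ω := a.2
    have hb : (b : A) • ω = ω := b.2
    show (a : A) • c • ω = (b : A) • c • ω
    rw [smul_comm, ha, smul_comm (b : A), hb]
  · have := h ⟨x, hx⟩
    exact congrArg Subtype.val this

theorem card_compl (A : Type u) [Group A] {Ω : Type v} [Fintype Ω] [MulAction A Ω] (ω : Ω) :
    Nat.card (compl A ω) + Nat.card (MulAction.orbit A ω) = Fintype.card Ω := by
  classical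
  have h := Nat.card_congr (Equiv.Set.sumCompl (MulAction.orbit A ω))
  rw [Nat.card_sum, Nat.card_eq_fintype_card (α := Ω)] at h
  rw [← h, add_comm]
  rfl

theorem move (p : ℕ) (hp : p.Prime) (A : Type u) [CommGroup A] [Finite A] {Ω : Type v} [MulAction A Ω]
    [FaithfulSMul A Ω] (k : ℕ) (hk0 : 1 ≤ k) (hk : Nat.card {x : A // x ^ p = 1} = p ^ k) :
    ∃ (z : A) (ω : Ω), z ^ p = 1 ∧ z • ω ≠ ω := by
  have h1 : 1 < Nat.card {x : A // x ^ p = 1} := by
    rw [hk]; exact Nat.one_lt_pow (by omega) hp.one_lt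
  haveI : Nontrivial {x : A // x ^ p = 1} := Finite.one_lt_card_iff_nontrivial.mp h1
  obtain ⟨z, hz⟩ := exists_ne (⟨1, one_pow p⟩ : {x : A // x ^ p = 1})
  have hz1 : z.1 ≠ 1 := fun h => hz (Subtype.ext h)
  by_contra hcon
  push Not at hcon
  apply hz1
  apply FaithfulSMul.eq_of_smul_eq_smul (α := Ω)
  intro ω
  rw [one_smul]
  exact hcon z.1 ω z.2



theorem rank (p : ℕ) (hp : p.Prime) (A : Type u) [CommGroup A] [Finite A] (hA : IsPGroup p A)
    (B : Subgroup A) (z : A) (hz : z ^ p = 1) (hzB : z ∉ B)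
    (k : ℕ) (hk : Nat.card {x : A // x ^ p = 1} = p ^ k) :
    ∃ l t : ℕ, 1 ≤ t ∧ k = t + l ∧ Nat.card {x : B // x ^ p = 1} = p ^ l ∧ p ^ t ≤ B.index := by
  have : Fact p.Prime := ⟨hp⟩
  set W : Subgroup A := (powMonoidHom p : A →* A).ker with hW
  have memW : ∀ x : A, x ∈ W ↔ x ^ p = 1 := fun x => by
    rw [hW, MonoidHom.mem_ker]; rfl
  have cW : Nat.card W = p ^ k := by
    rw [← hk]
    exact Nat.card_congr (Equiv.subtypeEquivRight memW)
  have cWB : Nat.card {x : B // x ^ p = 1} = Nat.card (B ⊓ W : Subgroup A) := by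
    apply Nat.card_congr
    refine ⟨fun x => ⟨x.1.1, x.1.2, (memW _).2 (by simpa using congrArg Subtype.val x.2)⟩,
      fun y => ⟨⟨y.1, y.2.1⟩, Subtype.ext (by simpa using (memW _).1 y.2.2)⟩, ?_, ?_⟩
    · intro x; rfl
    · intro y; rfl
  obtain ⟨l, hl⟩ := IsPGroup.iff_card.mp (hA.to_subgroup (B ⊓ W))
  have hrel : Nat.card (B ⊓ W : Subgroup A) * (B.relIndex W) = Nat.card W := by
    have h := Subgroup.relIndex_mul_relIndex (⊥ : Subgroup A) (B ⊓ W) W bot_le inf_le_right
    rwa [Subgroup.relIndex_bot_left, Subgroup.relIndex_bot_left, Subgroup.inf_relIndex_right] at h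
  rw [hl, cW] at hrel
  have hdvd : B.relIndex W ∣ p ^ k := ⟨p ^ l, by rw [← hrel, mul_comm]⟩
  obtain ⟨t, htk, ht⟩ := (Nat.dvd_prime_pow hp).mp hdvd
  have hne1 : B.relIndex W ≠ 1 := by
    intro h1
    rw [Subgroup.relIndex_eq_one] at h1
    exact hzB (h1 ((memW z).2 hz))
  have ht1 : 1 ≤ t := by
    rcases Nat.eq_zero_or_pos t with rfl | h
    · rw [pow_zero] at ht; exact absurd ht hne1
    · exact h
  rw [ht, ← pow_add] at hrel
  have hkt : l + t = k := Nat.pow_right_injective hp.two_le hrel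
  refine ⟨l, t, ht1, by omega, by rw [cWB, hl], ?_⟩
  rw [← ht]
  have hidx : B.index ≠ 0 := Subgroup.index_ne_zero_of_finite
  exact Nat.le_of_dvd (Nat.pos_of_ne_zero hidx) (Subgroup.relIndex_dvd_index_of_normal B W)

theorem num (s m t l : ℕ) (ht : 1 ≤ t) (hs : 2 ^ t ≤ s) :
    s * (t + l) ^ (t + l) * m ^ l ≤ (s + m) ^ (t + l) * l ^ l := by
  have h1 := Cfsg.Agent.Lib.Helper35.AB.num1 s t ht hs
  have h2 := Cfsg.Agent.Lib.Helper35.AB.num2 s m t l
  have htt : 0 < t ^ t := Nat.pow_pos (by omega)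
  apply Nat.le_of_mul_le_mul_right _ htt
  calc s * (t + l) ^ (t + l) * m ^ l * t ^ t = (s * t ^ t) * (m ^ l * (t + l) ^ (t + l)) := by ring
    _ ≤ s ^ t * (m ^ l * (t + l) ^ (t + l)) := Nat.mul_le_mul_right _ h1
    _ = s ^ t * m ^ l * (t + l) ^ (t + l) := by ring
    _ ≤ (s + m) ^ (t + l) * (t ^ t * l ^ l) := h2
    _ = (s + m) ^ (t + l) * l ^ l * t ^ t := by ring

theorem triv (p : ℕ) (hp : p.Prime) (A : Type u) [CommGroup A] [Finite A] (hA : IsPGroup p A)
    (hk : Nat.card {x : A // x ^ p = 1} = 1) : Nat.card A = 1 := by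
  by_contra hne
  haveI : Fact p.Prime := ⟨hp⟩
  obtain ⟨n, hn⟩ := IsPGroup.iff_card.mp hA
  have hn0 : n ≠ 0 := by
    rintro rfl
    simp at hn
    exact hne hn
  have hdvd : p ∣ Nat.card A := by
    rw [hn]; exact dvd_pow_self p hn0
  obtain ⟨x, hx⟩ := exists_prime_orderOf_dvd_card' p hdvd
  have h1 : x ^ p = 1 := by rw [← hx]; exact pow_orderOf_eq_one x
  have hsub : Subsingleton {x : A // x ^ p = 1} := (Nat.card_eq_one_iff_unique.mp hk).1
  have := hsub.elim ⟨x, h1⟩ ⟨1, one_pow p⟩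
  have hx1 : x = 1 := by simpa using congrArg Subtype.val this
  rw [hx1, orderOf_one] at hx
  exact hp.one_lt.ne hx

theorem main (p : ℕ) (hp : p.Prime) : ∀ (k : ℕ) (A : Type u) [CommGroup A] [Finite A]
    (Ω : Type v) [Fintype Ω] [MulAction A Ω] [FaithfulSMul A Ω], IsPGroup p A →
    Nat.card {x : A // x ^ p = 1} = p ^ k → Nat.card A * k ^ k ≤ Fintype.card Ω ^ k := by
  intro k
  induction k using Nat.strong_induction_on with
  | _ k ih =>
    intro A _ _ Ω _ _ _ hA hk
    rcases Nat.eq_zero_or_pos k with rfl | hk0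
    · have := triv p hp A hA (by simpa using hk)
      simp [this]
    obtain ⟨z, ω, hz, hzω⟩ := move p hp A (Ω := Ω) k hk0 hk
    have hzB : z ∉ MulAction.stabilizer A ω := by
      rw [MulAction.mem_stabilizer_iff]; exact hzω
    obtain ⟨l, t, ht, hkt, hl, hidx⟩ := rank p hp A hA (MulAction.stabilizer A ω) z hz hzB k hk
    haveI := faith A ω
    haveI : Fintype (compl A ω) := Fintype.ofFinite _
    have hB : IsPGroup p (MulAction.stabilizer A ω) := hA.to_subgroup _
    have ihB := ih l (by omega) (MulAction.stabilizer A ω) (compl A ω) hB hl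
    have hcard := card_compl A ω
    rw [← Nat.card_eq_fintype_card] at ihB
    set m := Nat.card (compl A ω) with hm
    set s := Nat.card (MulAction.orbit A ω) with hs
    have hsidx : s = (MulAction.stabilizer A ω).index := by
      rw [hs, MulAction.index_stabilizer]; rfl
    have hAs : Nat.card A = s * Nat.card (MulAction.stabilizer A ω) := by
      rw [hsidx, mul_comm]; exact (Subgroup.card_mul_index _).symm
    have h2 : 2 ^ t ≤ s := by
      rw [hsidx]
      exact le_trans (Nat.pow_le_pow_left hp.two_le t) hidx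
    have hnum := num s m t l ht h2
    have hll : 0 < l ^ l := by
      rcases Nat.eq_zero_or_pos l with rfl | h
      · simp
      · exact Nat.pow_pos h
    rw [← hcard, hAs, hkt, add_comm m s]
    apply Nat.le_of_mul_le_mul_right _ hll
    calc s * Nat.card (MulAction.stabilizer A ω) * (t + l) ^ (t + l) * l ^ l
        = s * (t + l) ^ (t + l) * (Nat.card (MulAction.stabilizer A ω) * l ^ l) := by ring
      _ ≤ s * (t + l) ^ (t + l) * m ^ l := Nat.mul_le_mul_left _ ihB
      _ ≤ (s + m) ^ (t + l) * l ^ l := hnum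

end Cfsg.Agent.Lib.Helper70.AB
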